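import Mathlib
import Cfsg.Agent.H645.FT.Defs
import Cfsg.Agent.H613.SubFus
import Cfsg.Agent.H651.LocalPair
import Cfsg.Prelude.Def_BlockFusion

/-!
# S4544, lemma B3 (helper755)

* `fus_iff`: fusion of elements of a maximal Brauer pair is conjugacy in the fusion system of the block;
* `nil_bel`: the block of the pair on `u` is nilpotent if no nontrivial automorphism of odd order in the fusion
  system fixes a conjugate of `u`.
-/

set_option autoImplicit false

open Cfsg Cfsg.FusionSystem Cfsg.Agent.H645.FT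
open Cfsg.Agent.H613.SubFus Cfsg.Agent.H649

namespace Cfsg.Agent.H755.FTB3

open Cfsg.Agent.Blocks.Blau Cfsg.Agent.Blocks.Local Cfsg.Agent.Characters
open Cfsg.Agent.H644 Cfsg.Agent.H651 Cfsg.Agent.H639

universe u

theorem fus_iff {G : Type u} [Group G] [Finite G] {M : Ideal AlgInt} (hM : IsPModular 2 M)
    {B : Set (IrrCharacter G)} {a : BrauerPairIdx G}
    (hmax : IsMaximalBrauerPair 2 M B a.1 a.2) {F : FusionSystem a.1}
    (hF : IsBlockFusionSystemOn 2 M B a.1 a.2 F) {u v : G} (hu : u ∈ a.1) (hv : v ∈ a.1) :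
    Fus 2 M a u v ↔ F.IsConjElt u v := by
  have : Fact (Nat.Prime 2) := ⟨Nat.prime_two⟩
  have ha : IsBrauerPair 2 M a.1 a.2 := hmax.1.1
  constructor
  · rintro ⟨x, hx, hxb⟩
    refine ⟨conjHom (Subgroup.zpowers u) x, (hF.2 _ _).2 ⟨by rwa [Subgroup.zpowers_le], x, fun w => rfl, ?_, ?_⟩, hx⟩
    · rintro _ ⟨w, hw, rfl⟩
      obtain ⟨k, rfl⟩ := Subgroup.mem_zpowers_iff.1 hw
      have h1 : x * u ^ k * x⁻¹ = v ^ k := by rw [← hx, conj_zpow]
      show x * u ^ k * x⁻¹ ∈ a.1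
      rw [h1]
      exact zpow_mem hv k
    · refine ⟨(bel 2 M a u).2, bel_le hM ha hu, ?_⟩
      have h1 : LEIdx 2 M (conjIdx x (bel 2 M a u)) a := by
        rw [hxb]
        exact bel_le hM ha hv
      have h2 : conjIdx x (bel 2 M a u) = ⟨(Subgroup.zpowers u).map (MulAut.conj x).toMonoidHom,
          conjBlock (Subgroup.zpowers u) x (bel 2 M a u).2⟩ := conjIdx_mk x _ _
      rw [h2] at h1
      exact h1
  · rintro ⟨φ, hφ, hφu⟩
    obtain ⟨-, g, hg, hle, f, hf, hf'⟩ := (hF.2 _ _).1 hφ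
    have h1 : g * u * g⁻¹ = v := by
      rw [← hφu, hg]
    rw [← h1]
    apply Fus.of_le hM ha
    have h2 : (⟨Subgroup.zpowers u, f⟩ : BrauerPairIdx G) = bel 2 M a u := eq_bel hM ha rfl hf
    rw [← h2, conjIdx_mk]
    exact hf'

theorem nil_bel {G : Type u} [Group G] [Finite G] {M : Ideal AlgInt} (hM : IsPModular 2 M)
    {B : Set (IrrCharacter G)} {a : BrauerPairIdx G}
    (hmax : IsMaximalBrauerPair 2 M B a.1 a.2) {F : FusionSystem a.1}
    (hF : IsBlockFusionSystemOn 2 M B a.1 a.2 F) {u : G} (hu : u ∈ a.1) (h : NilAt F u) :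
    IsNilpotentBlock 2 M (bel 2 M a u).2 := by
  have : Fact (Nat.Prime 2) := ⟨Nat.prime_two⟩
  have hp : M.IsPrime := isPrime_of_isPModular hM
  have := Fintype.ofFinite G
  have hnil := h
  have hQf : IsBrauerPairOf 2 M B (Subgroup.zpowers u) (bel 2 M a u).2 :=
    isBrauerPairOf_bel hM hmax hu
  refine ⟨hQf.1.2, fun R h hRh x hxN hxS hreg => ?_⟩
  have hn : IsNormalSubpair 2 M (Subgroup.zpowers u) (bel 2 M a u).2
      (locSub (Subgroup.zpowers u) R) (locBlk (Subgroup.zpowers u) R h) :=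
    (isNormalSubpair_locBlk_iff hQf.1.1 hQf.1.2 hRh.1.1).2 hRh
  have hB : IsBrauerPairOf 2 M B (locSub (Subgroup.zpowers u) R)
      (locBlk (Subgroup.zpowers u) R h) := isBrauerPairOf_of_isNormalSubpair hM hn hQf
  obtain ⟨y, hy⟩ := exists_conj_subpairLE hM hmax hB
  have hSP : (locSub (Subgroup.zpowers u) R).map (MulAut.conj y).toMonoidHom ≤ a.1 :=
    SubpairLE.le hy
  have huS : y * u * y⁻¹ ∈ (locSub (Subgroup.zpowers u) R).map (MulAut.conj y).toMonoidHom :=
    ⟨u, le_locSub _ R (Subgroup.mem_zpowers u), rfl⟩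
  have hfus : Fus 2 M a u (y * u * y⁻¹) := by
    refine Fus.of_le hM hmax.1.1 ?_
    have h1 : LEIdx 2 M (bel 2 M a u)
        ⟨locSub (Subgroup.zpowers u) R, locBlk (Subgroup.zpowers u) R h⟩ :=
      subpairLE_of_isNormalSubpair hn
    have h2 := (leIdx_conjIdx_iff y).2 h1
    have h3 : LEIdx 2 M (conjIdx y ⟨locSub (Subgroup.zpowers u) R,
        locBlk (Subgroup.zpowers u) R h⟩) a := by
      rw [conjIdx_mk]
      exact hy
    exact Relation.ReflTransGen.trans h2 h3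
  have hxu : (x : G) * u = u * x :=
    ((Subgroup.mem_centralizer_iff.1 x.2) u (Subgroup.mem_zpowers u)).symm
  -- `x` fixes the pair
  have hstab : conjIdx (x : G) ⟨locSub (Subgroup.zpowers u) R, locBlk (Subgroup.zpowers u) R h⟩ =
      ⟨locSub (Subgroup.zpowers u) R, locBlk (Subgroup.zpowers u) R h⟩ :=
    conjIdx_locBlk hRh.1.2 ((conjIdx_eq_iff hRh.1.2 x).2 ⟨hxN, hxS⟩)
  set E : Subgroup G := (locSub (Subgroup.zpowers u) R).map (MulAut.conj y).toMonoidHom with hE
  set f := conjBlock (locSub (Subgroup.zpowers u) R) y (locBlk (Subgroup.zpowers u) R h) with hf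
  set g : G := y * x * y⁻¹ with hg
  have hgE : conjIdx g ⟨E, f⟩ = ⟨E, f⟩ := by
    have h1 : (⟨E, f⟩ : BrauerPairIdx G) = conjIdx y ⟨locSub (Subgroup.zpowers u) R,
        locBlk (Subgroup.zpowers u) R h⟩ := (conjIdx_mk y _ _).symm
    rw [h1, conjIdx_conjIdx]
    have h2 : g * y = y * x := by rw [hg]; group
    rw [h2, ← conjIdx_conjIdx, hstab]
  have hgmap : E.map (MulAut.conj g).toMonoidHom = E := congrArg Sigma.fst hgE
  -- the automorphism of `E`
  have hgm : ∀ e ∈ E, g * e * g⁻¹ ∈ E := fun e he => by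
    have h1 : g * e * g⁻¹ ∈ E.map (MulAut.conj g).toMonoidHom := ⟨e, he, rfl⟩
    rwa [hgmap] at h1
  have hgm' : ∀ e ∈ E, g⁻¹ * e * g ∈ E := fun e he => by
    have h1 : e ∈ E.map (MulAut.conj g).toMonoidHom := by rwa [hgmap]
    obtain ⟨w, hw, rfl⟩ := h1
    have h2 : g⁻¹ * (MulAut.conj g).toMonoidHom w * g = w := by
      show g⁻¹ * (g * w * g⁻¹) * g = w
      group
    rwa [h2]
  let α : MulAut E :=
    { toFun := fun e => ⟨g * e * g⁻¹, hgm e e.2⟩
      invFun := fun e => ⟨g⁻¹ * e * g, hgm' e e.2⟩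
      left_inv := fun e => Subtype.ext (by
        show g⁻¹ * (g * (e : G) * g⁻¹) * g = e
        group)
      right_inv := fun e => Subtype.ext (by
        show g * (g⁻¹ * (e : G) * g) * g⁻¹ = e
        group)
      map_mul' := fun e e' => Subtype.ext (by
        show g * ((e : G) * e') * g⁻¹ = g * (e : G) * g⁻¹ * (g * (e' : G) * g⁻¹)
        group) }
  have hα : ∀ e : E, ((α e : E) : G) = g * e * g⁻¹ := fun _ => rfl
  have hαF : α ∈ F.autGroup E := by
    apply Subgroup.subset_closure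
    refine (hF.2 _ _).2 ⟨hSP, g, fun w => rfl, by rw [hgmap]; exact hSP, f, hy, ?_⟩
    have h1 : (⟨E.map (MulAut.conj g).toMonoidHom, conjBlock E g f⟩ : BrauerPairIdx G) = ⟨E, f⟩ := by
      rw [← conjIdx_mk]
      exact hgE
    show Relation.ReflTransGen (NormalSubpairRel 2 M) ⟨E.map (MulAut.conj g).toMonoidHom, conjBlock E g f⟩ _
    rw [h1]
    exact hy
  have hαpow : ∀ (k : ℕ) (e : E), (((α ^ k) e : E) : G) = g ^ k * e * (g ^ k)⁻¹ := by
    intro k
    induction k with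
    | zero => intro e; simp
    | succ k ih =>
      intro e
      rw [pow_succ, MulAut.mul_apply, ih, hα, pow_succ, mul_inv_rev (g ^ k) g]
      simp only [mul_assoc]
  have hαord : ¬ 2 ∣ orderOf α := by
    intro h2
    have h3 : orderOf α ∣ orderOf g := by
      apply orderOf_dvd_of_pow_eq_one
      ext e
      rw [hαpow, pow_orderOf_eq_one]
      simp
    have h4 : orderOf g = orderOf x := by
      rw [hg, Cfsg.Agent.Blocks.Blau.orderOf_conj_eq, Subgroup.orderOf_coe]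
    rw [h4] at h3
    exact hreg (h2.trans h3)
  have hE1 := hnil E hSP ⟨y * u * y⁻¹, huS⟩ ((fus_iff hM hmax hF hu (hSP huS)).1 hfus) α hαF hαord
    (Subtype.ext (by
      rw [hα]
      show g * (y * u * y⁻¹) * g⁻¹ = y * u * y⁻¹
      rw [hg]
      calc y * x * y⁻¹ * (y * u * y⁻¹) * (y * x * y⁻¹)⁻¹ = y * (x * u) * (x : G)⁻¹ * y⁻¹ := by group
        _ = y * (u * x) * (x : G)⁻¹ * y⁻¹ := by rw [hxu]
        _ = _ := by group))
  rw [Subgroup.mem_centralizer_iff]
  intro r hr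
  apply Subtype.ext
  have h5 : y * (r : G) * y⁻¹ ∈ E := ⟨(r : G), coe_mem_locSub hr, rfl⟩
  have h6 : g * (y * (r : G) * y⁻¹) * g⁻¹ = y * (r : G) * y⁻¹ := by
    have h7 := hα ⟨y * (r : G) * y⁻¹, h5⟩
    rw [hE1] at h7
    exact h7.symm
  rw [hg] at h6
  have h7 : y * ((x : G) * r) * y⁻¹ = y * ((r : G) * x) * y⁻¹ := by
    have h8 : y * (x : G) * y⁻¹ * (y * (r : G) * y⁻¹) = y * (r : G) * y⁻¹ * (y * (x : G) * y⁻¹) :=
      mul_inv_eq_iff_eq_mul.1 h6
    calc y * ((x : G) * r) * y⁻¹ = y * (x : G) * y⁻¹ * (y * (r : G) * y⁻¹) := by group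
      _ = y * (r : G) * y⁻¹ * (y * (x : G) * y⁻¹) := h8
      _ = _ := by group
  exact (mul_left_cancel (mul_right_cancel h7)).symm

end Cfsg.Agent.H755.FTB3
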